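import Cfsg.Agent.H620.RIM.Dz
import Cfsg.Agent.H35.RIM.BRElt
import Cfsg.Agent.H142.McKayCount

/-!
# S4816: counting characters over a central character with good classes; central extensions of `S₅` (helper488)

* `exists_dvd_good` : more good classes of `G ⧸ Z` than `|C(y)|`, `y` a `p`-element: a character over `c` of degree
  divisible by `p`;
* `exists_five` : a central extension of the symmetric group of degree five in which commuting with a transposition
  lifts has over every central character of the kernel a character whose degree is exactly divisible by 5.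
-/

set_option autoImplicit false
set_option linter.unusedSectionVars false

namespace Cfsg.Agent.H488.RIM

open Cfsg Subgroup Finset
open Cfsg.Agent.Characters.Core
open Cfsg.Agent.H622.Over Cfsg.Agent.H849.RIM Cfsg.Agent.H620.RIM

universe u

section

variable {G : Type u} [Group G] [Finite G] {Z : Subgroup G} [Z.Normal]

theorem card_good_ge' (hZ : Z ≤ center G) (c : Z →* ℂˣ) (F : Finset (ConjClasses (G ⧸ Z)))
    (hF : ∀ C ∈ F, ∃ g : G, ConjClasses.mk (g : G ⧸ Z) = C ∧ Good Z c g) :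
    F.card ≤ Nat.card {χ : IrrCharacter G // Lies Z c (χ : G → ℂ)} := by
  classical
  rw [card_over hZ c, card_good hZ c]
  have h1 : Set.Finite {C : ConjClasses (G ⧸ Z) | ∃ g : G, ConjClasses.mk (g : G ⧸ Z) = C ∧ Good Z c g} := by
    have : Finite (ConjClasses (G ⧸ Z)) := Finite.of_surjective _ (ConjClasses.mk_surjective (α := G ⧸ Z))
    exact Set.toFinite _
  have h2 : (F : Set (ConjClasses (G ⧸ Z))) ⊆
      {C : ConjClasses (G ⧸ Z) | ∃ g : G, ConjClasses.mk (g : G ⧸ Z) = C ∧ Good Z c g} := by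
    intro C hC
    exact hF C (mem_coe.1 hC)
  have h3 := Set.ncard_le_ncard h2 h1
  rw [Set.ncard_coe_finset] at h3
  exact h3

/-- more good classes than `|C(y)|` -/
theorem exists_dvd_good {p : ℕ} [Fact p.Prime] (hZ : Z ≤ center G) (hZp : ¬ p ∣ Nat.card Z)
    {y : G ⧸ Z} {n : ℕ} (hy : orderOf y = p ^ n) (c : Z →* ℂˣ) (F : Finset (ConjClasses (G ⧸ Z)))
    (hF : ∀ C ∈ F, ∃ g : G, ConjClasses.mk (g : G ⧸ Z) = C ∧ Good Z c g)
    (hlt : Nat.card (centralizer ({y} : Set (G ⧸ Z))) < F.card) :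
    ∃ χ : IrrCharacter G, Lies Z c (χ : G → ℂ) ∧ p ∣ charDegree (χ : G → ℂ) := by
  classical
  have hp : p.Prime := Fact.out
  have hco : (p ^ n).Coprime (Nat.card Z) := Nat.Coprime.pow_left n ((hp.coprime_iff_not_dvd).2 hZp)
  -- the lift
  obtain ⟨u, rfl, hu⟩ : ∃ u : G, (u : G ⧸ Z) = y ∧ u ^ (p ^ n) = 1 := by
    obtain ⟨g, rfl⟩ := QuotientGroup.mk_surjective y
    obtain ⟨a, ha⟩ := (Nat.modEq_and_modEq_iff_modEq_mul hco).2 rfl |> fun _ : (0 : ℕ) ≡ 0 [MOD p ^ n] ∧ _ =>
      (⟨Nat.chineseRemainder hco 1 0, (Nat.chineseRemainder hco 1 0).2⟩ : ∃ a, a ≡ 1 [MOD p ^ n] ∧ a ≡ 0 [MOD Nat.card Z])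
    refine ⟨g ^ a, ?_, ?_⟩
    · rw [QuotientGroup.mk_pow]
      have h1 : (g : G ⧸ Z) ^ a = (g : G ⧸ Z) ^ 1 := pow_eq_pow_iff_modEq.2 (by rw [hy]; exact ha.1)
      rw [h1, pow_one]
    · have h1 : g ^ (p ^ n) ∈ Z := by
        rw [← QuotientGroup.eq_one_iff, QuotientGroup.mk_pow, ← hy]
        exact pow_orderOf_eq_one _
      have h2 : (g ^ (p ^ n)) ^ Nat.card Z = 1 := by
        have h3 := pow_card_eq_one' (G := Z) (x := ⟨g ^ (p ^ n), h1⟩)
        exact congrArg Subtype.val h3
      obtain ⟨b, hb⟩ := (Nat.modEq_zero_iff_dvd).1 ha.2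
      calc (g ^ a) ^ (p ^ n) = ((g ^ (p ^ n)) ^ Nat.card Z) ^ b := by
            rw [hb, ← pow_mul, ← pow_mul, ← pow_mul]; ring_nf
        _ = 1 := by rw [h2, one_pow]
  have hou : orderOf u ∣ p ^ n := orderOf_dvd_of_pow_eq_one hu
  have hw : (orderOf u).Coprime (Nat.card Z) := hco.coprime_dvd_left hou
  -- the centralizer
  have hcent : centralizer ({u} : Set G) =
      (centralizer ({(u : G ⧸ Z)} : Set (G ⧸ Z))).comap (QuotientGroup.mk' Z) := by
    ext x
    rw [mem_centralizer_singleton_iff, mem_comap, mem_centralizer_singleton_iff]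
    constructor
    · intro h
      have := congrArg (QuotientGroup.mk' Z) h
      simpa using this
    · intro h
      have h2 : (x : G ⧸ Z) * u = u * x := h
      have h3 : u⁻¹ * (x * u * x⁻¹) ∈ Z := by
        rw [← QuotientGroup.eq_one_iff, QuotientGroup.mk_mul, QuotientGroup.mk_inv, QuotientGroup.mk_mul,
          QuotientGroup.mk_mul, QuotientGroup.mk_inv, h2, mul_inv_cancel_right, inv_mul_cancel]
      have h4 : IsConj u (u * ((⟨_, h3⟩ : Z) : G)) := by
        rw [isConj_iff]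
        exact ⟨x, by simp⟩
      have h5 := congrArg Subtype.val (eq_one_of_conj hZ hw _ h4)
      have h6 : u⁻¹ * (x * u * x⁻¹) = 1 := h5
      rw [inv_mul_eq_one] at h6
      rw [eq_comm, mul_inv_eq_iff_eq_mul] at h6
      exact h6
  obtain ⟨χ, hl, h0⟩ := exists_zero_over hZ c hw (by
    rw [hcent, card_comap, mul_comm]
    refine Nat.mul_lt_mul_of_pos_left (lt_of_lt_of_le hlt (card_good_ge' hZ c F hF)) Nat.card_pos)
  refine ⟨χ, hl, ?_⟩
  obtain ⟨M, hM⟩ := Blocks.ExistsModular.exists_isPModular hp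
  have hMp : M.IsPrime := hM.2.1.isPrime
  have h1 := H849.OZ.av_sub_mem (χ := χ) hp hMp hM.2.2 u (j := 0) (n := n) (by rw [pow_zero, one_pow, hu])
  have h3 : H732.VZ.av χ u = 0 := Subtype.ext h0
  rw [h3, pow_zero, zero_sub, Ideal.neg_mem_iff] at h1
  have h4 : H732.VZ.av χ 1 = ((charDegree (χ : G → ℂ) : ℤ) : AlgInt) := by
    apply Subtype.ext
    rw [H732.VZ.av_coe, ← H686.CharKit.charDegree_irr χ]
    simp
  rw [h4, H732.VZ.int_mem_iff hp hMp hM.2.2] at h1
  exact_mod_cast h1

end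

/-! ### Central extensions of the symmetric group of degree five -/

abbrev P5 := Equiv.Perm (Fin 5)

/-- elements of orders `1, ..., 6` -/
def s : Fin 6 → P5 := ![1, Equiv.swap 0 1, Equiv.swap 0 1 * Equiv.swap 1 2,
  Equiv.swap 0 1 * Equiv.swap 1 2 * Equiv.swap 2 3, Equiv.swap 0 1 * Equiv.swap 1 2 * Equiv.swap 2 3 * Equiv.swap 3 4,
  Equiv.swap 0 1 * Equiv.swap 1 2 * Equiv.swap 3 4]

theorem order_s (i : Fin 6) : orderOf (s i) = i + 1 := by
  have h : ∀ i : Fin 6, s i ^ ((i : ℕ) + 1) = 1 ∧ ∀ j < (i : ℕ) + 1, 0 < j → s i ^ j ≠ 1 := by decide +kernel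
  exact (orderOf_eq_iff (Nat.succ_pos _)).2 (h i)

theorem card_cent_P5 (g : P5) : Nat.card (centralizer ({g} : Set P5)) = (univ.filter fun p : P5 => p * g = g * p).card := by
  rw [← Fintype.card_subtype, ← Nat.card_eq_fintype_card]
  exact Nat.card_congr (Equiv.subtypeEquivRight fun x => mem_centralizer_singleton_iff)

/-- the orders of the centralizers over the orders -/
def k : Fin 6 → ℕ := ![120, 6, 2, 1, 1, 1]

theorem card_s (i : Fin 6) : Nat.card (centralizer ({s i} : Set P5)) = (i + 1) * k i := by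
  rw [card_cent_P5]
  revert i
  decide +kernel

theorem mGood_s (m : ℕ) {i : Fin 6} (hi : i ≠ 1) : MGood m (s i) := by
  refine mGood_of_card (order_s i) (Nat.succ_pos _) (card_s i) fun r hr _ => ?_
  have h1 : ((i : ℕ) + 1).Coprime (k i) := by
    revert i
    decide +kernel
  by_contra hcon
  push Not at hcon
  exact Nat.Prime.not_coprime_iff_dvd.2 ⟨r, hr, hcon.1, hcon.2⟩ h1

theorem exists_five {G : Type u} [Group G] [Finite G] (φ : G →* P5) (hφ : Function.Surjective φ)
    (hZ : φ.ker ≤ center G) (hp : ¬ 5 ∣ Nat.card φ.ker)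
    (hsw : ∀ g x : G, φ g = Equiv.swap 0 1 → φ x * φ g = φ g * φ x → x * g = g * x) (c : φ.ker →* ℂˣ) :
    ∃ χ : G → ℂ, IsIrrCharacter G χ ∧ (∀ z : φ.ker, χ z = χ 1 * c z) ∧ (charDegree χ).factorization 5 = 1 := by
  classical
  have h5 : Fact (Nat.Prime 5) := ⟨by norm_num⟩
  let e : G ⧸ φ.ker ≃* P5 := QuotientGroup.quotientKerEquivOfSurjective φ hφ
  have he : ∀ g : G, e (g : G ⧸ φ.ker) = φ g := fun g => rfl
  have hinj : Function.Injective fun i : Fin 6 => ConjClasses.mk (e.symm (s i)) := by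
    intro i j hij
    have h1 : IsConj (e.symm (s i)) (e.symm (s j)) := ConjClasses.mk_eq_mk_iff_isConj.1 hij
    obtain ⟨g, hg⟩ := isConj_iff.1 h1
    have h2 : orderOf (e.symm (s i)) = orderOf (e.symm (s j)) := by
      rw [← hg, ← MulAut.conj_apply]
      exact (orderOf_injective (MulAut.conj g).toMonoidHom (MulAut.conj g).injective _).symm
    have h3 : ∀ i, orderOf (e.symm (s i)) = i + 1 := fun i => by
      rw [← order_s i]
      exact orderOf_injective e.symm.toMonoidHom e.symm.injective _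
    rw [h3, h3] at h2
    exact Fin.ext (by omega)
  have hy : orderOf (e.symm (s 4)) = 5 ^ 1 := by
    have h1 : orderOf (e.symm (s 4)) = orderOf (s 4) := orderOf_injective e.symm.toMonoidHom e.symm.injective _
    rw [h1, order_s]
    rfl
  have hC : Nat.card (centralizer ({e.symm (s 4)} : Set (G ⧸ φ.ker))) = 5 := by
    have h1 := card_s 4
    have h2 : ((4 : Fin 6) : ℕ) + 1 = 5 := rfl
    have h3 : k 4 = 1 := rfl
    rw [h2, h3, mul_one] at h1
    refine Eq.trans ?_ h1
    refine Nat.card_congr (e.toEquiv.subtypeEquiv fun x => ?_)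
    rw [mem_centralizer_singleton_iff, mem_centralizer_singleton_iff]
    show x * e.symm (s 4) = e.symm (s 4) * x ↔ e x * s 4 = s 4 * e x
    rw [← e.injective.eq_iff, map_mul, map_mul, e.apply_symm_apply]
  obtain ⟨χ, h1, h2⟩ := exists_dvd_good (Z := φ.ker) hZ hp hy c (univ.map ⟨_, hinj⟩) (by
    intro C hCm
    obtain ⟨i, -, rfl⟩ := mem_map.1 hCm
    obtain ⟨g, hg⟩ := QuotientGroup.mk_surjective (e.symm (s i))
    refine ⟨g, congrArg _ hg, ?_⟩
    by_cases hi : i = 1
    · subst hi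
      have h3 : φ g = Equiv.swap 0 1 := by
        rw [← he g, hg, e.apply_symm_apply]
        rfl
      intro x hx
      have h4 : φ (x⁻¹ * g⁻¹ * x * g) = 1 := hx
      have h5 : x * g = g * x := by
        apply hsw g x h3
        rw [map_mul, map_mul, map_mul, map_inv, map_inv] at h4
        have h6 : φ x * φ g = φ g * φ x * ((φ x)⁻¹ * (φ g)⁻¹ * φ x * φ g) := by group
        rw [h6, h4, mul_one]
      have h6 : x⁻¹ * g⁻¹ * x * g = 1 := by
        rw [mul_assoc, h5]
        group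
      have h7 : (⟨x⁻¹ * g⁻¹ * x * g, hx⟩ : φ.ker) = 1 := Subtype.ext h6
      rw [h7, map_one]
    · apply good_of_mGood hZ
      rw [hg]
      exact (mGood_s _ hi).mulEquiv e.symm) (by
    rw [hC, card_map, card_univ, Fintype.card_fin]
    norm_num)
  refine ⟨χ, χ.2, fun z => ?_, ?_⟩
  · have h3 := h1 1 z
    rwa [one_mul] at h3
  · have h3 : charDegree (χ : G → ℂ) ∣ Nat.card G := Cfsg.Agent.H142.McKayCount.charDegree_dvd_card χ
    have h4 : Nat.card G = 120 * Nat.card φ.ker := by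
      rw [card_eq_card_quotient_mul_card_subgroup φ.ker, Nat.card_congr e.toEquiv, Nat.card_eq_fintype_card]
      congr 1
    have h6 : ¬ 5 ^ 2 ∣ Nat.card G := by
      rw [h4, show (120 : ℕ) = 5 * 24 by norm_num, pow_two, mul_assoc]
      intro h
      have h7 := Nat.dvd_of_mul_dvd_mul_left (by norm_num) h
      rcases (Nat.Prime.dvd_mul h5.out).1 h7 with h8 | h8
      · exact absurd h8 (by norm_num)
      · exact hp h8
    have h7 : charDegree (χ : G → ℂ) ≠ 0 := fun h => by
      rw [h, zero_dvd_iff] at h3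
      exact Nat.card_pos.ne' h3
    apply le_antisymm
    · by_contra hcon
      push Not at hcon
      exact h6 (((h5.out.pow_dvd_iff_le_factorization h7).2 hcon).trans h3)
    · exact (h5.out.dvd_iff_one_le_factorization h7).1 h2

end Cfsg.Agent.H488.RIM
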